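import Mathlib
import Cfsg.Agent.Lib.Helper9.S3805.Defs

/-!
# S3805, package CLin2 (helper24)

A normal subgroup `K` of `G` containing `ψ j₀` but not `ψ i₀` gives a sign character `lam` of
`G` which is trivial on `ψ(C1₀)` and `-1` at `ψ i₀`.
-/

set_option autoImplicit false
set_option maxRecDepth 100000

namespace Cfsg.Agent.Lib.Helper24.S3805

open Cfsg.Agent.Lib.Helper9.S3805

universe u

/-- The sign of the first coordinate, as a function `P → ℂˣ`. -/
noncomputable def sgnFun (p : P) : ℂˣ := if inC1 p = true then 1 else -1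

theorem sgnFun_mul (p q : P) : sgnFun (p * q) = sgnFun p * sgnFun q := by
  obtain ⟨p1, p2⟩ := p
  obtain ⟨q1, q2⟩ := q
  cases p1 <;> cases q1 <;> simp [sgnFun, inC1, isRot]

/-- The sign of the first coordinate, as a hom `P →* ℂˣ`. -/
noncomputable def sgnHom : P →* ℂˣ := MonoidHom.mk' sgnFun sgnFun_mul

theorem sgnHom_apply (p : P) : sgnHom p = if inC1 p = true then 1 else -1 := rfl

theorem sgnHom_of_inC1 (p : P) (h : inC1 p = true) : sgnHom p = 1 := by
  rw [sgnHom_apply, if_pos h]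

theorem sgnHom_of_not_inC1 (p : P) (h : inC1 p = false) : sgnHom p = -1 := by
  rw [sgnHom_apply, if_neg (by simp [h])]

theorem sgnHom_pm (p : P) : sgnHom p = 1 ∨ sgnHom p = -1 := by
  rw [sgnHom_apply]
  split_ifs
  · exact Or.inl rfl
  · exact Or.inr rfl

theorem second_factor_gen : ∀ x : DihedralGroup 3,
    (∃ u : P, ((1 : DihedralGroup 3), x) = u * j₀ * u⁻¹) ∨
    (∃ u : P, ((1 : DihedralGroup 3), x) = j₀ * (u * j₀ * u⁻¹)) := by
  decide

theorem refl_conj_i₀ : ∀ p : P, inC1 p = false →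
    ∃ u : P, i₀ = u * (p * ((1 : DihedralGroup 3), p.2)⁻¹) * u⁻¹ := by
  decide

theorem inT_b₀ : inT b₀ = true := by decide

theorem b₀_ne_one : b₀ ≠ 1 := by decide

theorem b₀_snd : b₀ = ((1 : DihedralGroup 3), b₀.2) := by decide

theorem b₀_pow : b₀ ^ 3 = 1 := by decide

theorem inC1_i₀ : inC1 i₀ = false := by decide

theorem inC1_mul_inv : ∀ p q : P, inC1 (p * q⁻¹) = true → (inC1 p = true ↔ inC1 q = true) := by
  decide

/-- All of `ψ(1 × D₃)` lies in `K`. -/
theorem second_factor_mem {G : Type u} [Group G] {T : Subgroup G} (M : Model G T)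
    (K : Subgroup G) [hK : K.Normal] (hj : M.ψ j₀ ∈ K) (x : DihedralGroup 3) :
    M.ψ ((1 : DihedralGroup 3), x) ∈ K := by
  rcases second_factor_gen x with ⟨u, hu⟩ | ⟨u, hu⟩
  · rw [hu, map_mul, map_mul, map_inv]
    exact hK.conj_mem _ hj _
  · rw [hu, map_mul, map_mul, map_mul, map_inv]
    exact K.mul_mem hj (hK.conj_mem _ hj _)

/-- `K ∩ N ≤ ψ(C1₀)`. -/
theorem inC1_of_mem {G : Type u} [Group G] {T : Subgroup G} (M : Model G T)
    (K : Subgroup G) [hK : K.Normal] (hj : M.ψ j₀ ∈ K) (hi : M.ψ i₀ ∉ K) (p : P)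
    (hp : M.ψ p ∈ K) : inC1 p = true := by
  by_contra hc
  have hc' : inC1 p = false := by simpa using hc
  obtain ⟨u, hu⟩ := refl_conj_i₀ p hc'
  apply hi
  rw [hu, map_mul, map_mul, map_inv, map_mul, map_inv]
  exact hK.conj_mem _ (K.mul_mem hp (K.inv_mem (second_factor_mem M K hj p.2))) _

/-- Frattini: `G = K · N`. -/
theorem frattini_decomp (hTI : PkgTI.{u}) {G : Type u} [Group G] [Finite G] (T : Sylow 3 G)
    (M : Model G (T : Subgroup G)) (hloc : Loc (T : Subgroup G)) (K : Subgroup G)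
    [hK : K.Normal] (hj : M.ψ j₀ ∈ K) (g : G) : ∃ k ∈ K, ∃ p : P, g = k * M.ψ p := by
  have : Fact (Nat.Prime 3) := ⟨Nat.prime_three⟩
  -- `b ∈ K`
  have hbK : M.ψ b₀ ∈ K := by
    rw [b₀_snd]
    exact second_factor_mem M K hj _
  have hb1 : M.ψ b₀ ≠ 1 := by
    intro h
    exact b₀_ne_one (M.inj (by rw [h, map_one]))
  -- `3 ∣ |K|`
  have h3 : 3 ∣ Nat.card K := by
    have ho : orderOf (⟨M.ψ b₀, hbK⟩ : K) = 3 := by
      have h1 : (⟨M.ψ b₀, hbK⟩ : K) ^ 3 = 1 := by
        apply Subtype.ext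
        simp only [Subgroup.coe_pow, Subgroup.coe_one]
        rw [← map_pow, b₀_pow, map_one]
      have h2 : (⟨M.ψ b₀, hbK⟩ : K) ≠ 1 := by
        intro h
        exact hb1 (congrArg Subtype.val h)
      exact orderOf_eq_prime h1 h2
    rw [← ho]
    exact orderOf_dvd_natCard _
  obtain ⟨P₃⟩ : Nonempty (Sylow 3 K) := inferInstance
  have hne : (P₃ : Subgroup K) ≠ ⊥ := P₃.ne_bot_of_dvd_card h3
  obtain ⟨q₀, hq₀1⟩ := (Subgroup.ne_bot_iff_exists_ne_one).mp hne
  -- `Q₀`, the image in `G`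
  have hQ₀p : IsPGroup 3 ((P₃ : Subgroup K).map K.subtype) := P₃.isPGroup'.map K.subtype
  obtain ⟨T', hT'⟩ := hQ₀p.exists_le_sylow
  obtain ⟨x, hx⟩ := MulAction.exists_smul_eq G T T'
  -- elements of `Q₀` are conjugated into `T` by `x⁻¹`
  have hconj : ∀ q ∈ (P₃ : Subgroup K).map K.subtype, x⁻¹ * q * x ∈ (T : Subgroup G) := by
    intro q hq
    have h1 : q ∈ ((x • T : Sylow 3 G) : Subgroup G) := by
      rw [hx]
      exact hT' hq
    rw [Sylow.coe_subgroup_smul, Subgroup.mem_pointwise_smul_iff_inv_smul_mem] at h1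
    simpa [MulAut.smul_def] using h1
  have hTN : (T : Subgroup G) ≤ Subgroup.normalizer ((T : Subgroup G) : Set G) :=
    Subgroup.le_normalizer
  -- the chosen nontrivial element
  have hqmem : ((q₀ : K) : G) ∈ (P₃ : Subgroup K).map K.subtype :=
    ⟨(q₀ : K), q₀.2, rfl⟩
  have hq1 : ((q₀ : K) : G) ≠ 1 := by
    intro h
    apply hq₀1
    apply Subtype.ext
    apply Subtype.ext
    simpa using h
  have ht := hconj _ hqmem
  have htr : x⁻¹ * ((q₀ : K) : G) * x ∈ M.ψ.range := by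
    rw [M.range_eq]
    exact hTN ht
  obtain ⟨p, hp⟩ := htr
  have hpT : inT p = true := by
    rw [← M.mem_T, hp]
    exact ht
  have hp1 : p ≠ 1 := by
    intro h
    rw [h, map_one] at hp
    apply hq1
    have : ((q₀ : K) : G) = x * (x⁻¹ * ((q₀ : K) : G) * x) * x⁻¹ := by group
    rw [this, ← hp]
    group
  -- normalizer of `Q₀` is in `x N x⁻¹`
  have hnorm : ∀ y ∈ Subgroup.normalizer (((P₃ : Subgroup K).map K.subtype : Subgroup G) : Set G),
      x⁻¹ * y * x ∈ Subgroup.normalizer ((T : Subgroup G) : Set G) := by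
    intro y hy
    have h1 : y * ((q₀ : K) : G) * y⁻¹ ∈ (P₃ : Subgroup K).map K.subtype :=
      (Subgroup.mem_normalizer_iff.mp hy _).mp hqmem
    have h2 := hconj _ h1
    have h3 : x⁻¹ * (y * ((q₀ : K) : G) * y⁻¹) * x ∈ M.ψ.range := by
      rw [M.range_eq]
      exact hTN h2
    obtain ⟨q', hq'⟩ := h3
    refine hTI (T : Subgroup G) M hloc (x⁻¹ * y * x) p q' hpT hp1 ?_
    rw [hp, hq']
    group
  have hfr := Sylow.normalizer_sup_eq_top P₃
  have hmem : x * g * x⁻¹ ∈ Subgroup.normalizer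
      (((P₃ : Subgroup K).map K.subtype : Subgroup G) : Set G) ⊔ K := by
    rw [hfr]
    exact Subgroup.mem_top _
  have hmem' : x * g * x⁻¹ ∈ ((Subgroup.normalizer
      (((P₃ : Subgroup K).map K.subtype : Subgroup G) : Set G) ⊔ K : Subgroup G) : Set G) := hmem
  rw [Subgroup.mul_normal] at hmem'
  obtain ⟨y, hy, z, hz, hyz⟩ := Set.mem_mul.mp hmem'
  have hn := hnorm y hy
  rw [← M.range_eq] at hn
  obtain ⟨p', hp'⟩ := hn
  refine ⟨(x⁻¹ * y * x) * (x⁻¹ * z * x) * (x⁻¹ * y * x)⁻¹, ?_, p', ?_⟩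
  · apply hK.conj_mem
    have := hK.conj_mem z hz x⁻¹
    simpa using this
  · rw [hp']
    have : g = x⁻¹ * (x * g * x⁻¹) * x := by group
    rw [this, ← hyz]
    group

/-- The package. -/
theorem pkgCLin2 : PkgCLin2.{u} := by
  intro hTI G _ _ T M hloc K hK hj hi
  classical
  have hF : ∀ g : G, ∃ p : P, ∃ k ∈ K, g = k * M.ψ p := by
    intro g
    obtain ⟨k, hk, p, hp⟩ := frattini_decomp hTI T M hloc K hj g
    exact ⟨p, k, hk, hp⟩
  -- the key well-definedness statement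
  have key : ∀ (g k : G) (p : P), k ∈ K → g = k * M.ψ p →
      sgnHom (Classical.choose (hF g)) = sgnHom p := by
    intro g k p hk hg
    obtain ⟨k', hk', hg'⟩ := Classical.choose_spec (hF g)
    set p' := Classical.choose (hF g) with hp'
    have h1 : M.ψ (p' * p⁻¹) ∈ K := by
      have : M.ψ (p' * p⁻¹) = k'⁻¹ * k := by
        rw [map_mul, map_inv]
        have e : k' * M.ψ p' = k * M.ψ p := by rw [← hg', ← hg]
        have e2 : M.ψ p' = k'⁻¹ * (k * M.ψ p) := by rw [← e]; group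
        rw [e2]
        group
      rw [this]
      exact K.mul_mem (K.inv_mem hk') hk
    have h2 := inC1_of_mem M K hj hi _ h1
    have h3 := sgnHom_of_inC1 _ h2
    rw [map_mul, map_inv] at h3
    exact mul_inv_eq_one.mp h3
  let f : G → ℂˣ := fun g => sgnHom (Classical.choose (hF g))
  have hfmul : ∀ a b : G, f (a * b) = f a * f b := by
    intro a b
    obtain ⟨ka, hka, ha⟩ := Classical.choose_spec (hF a)
    obtain ⟨kb, hkb, hb⟩ := Classical.choose_spec (hF b)
    set pa := Classical.choose (hF a) with hpa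
    set pb := Classical.choose (hF b) with hpb
    have hab : a * b = (ka * (M.ψ pa * kb * (M.ψ pa)⁻¹)) * M.ψ (pa * pb) := by
      rw [map_mul]
      conv_lhs => rw [ha, hb]
      group
    have := key (a * b) _ (pa * pb) (K.mul_mem hka (hK.conj_mem kb hkb _)) hab
    show sgnHom (Classical.choose (hF (a * b))) = sgnHom pa * sgnHom pb
    rw [this, map_mul]
  refine ⟨MonoidHom.mk' f hfmul, ?_, ?_, ?_⟩
  · intro g
    exact sgnHom_pm _
  · intro p hp
    show sgnHom (Classical.choose (hF (M.ψ p))) = 1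
    rw [key (M.ψ p) 1 p K.one_mem (by rw [one_mul])]
    exact sgnHom_of_inC1 p hp
  · show sgnHom (Classical.choose (hF (M.ψ i₀))) = -1
    rw [key (M.ψ i₀) 1 i₀ K.one_mem (by rw [one_mul])]
    exact sgnHom_of_not_inC1 i₀ inC1_i₀

end Cfsg.Agent.Lib.Helper24.S3805
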